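import Cfsg.Agent.Transfer.FusionFree.Words
import Cfsg.Prelude.Def_FusionSystem
import Mathlib.GroupTheory.FreeGroup.NielsenSchreier
import Mathlib.GroupTheory.Complement

/-! Every fusion system on a finite group is realized by a virtually free group. -/

set_option autoImplicit false

namespace Cfsg.Agent.Transfer.FusionFree

open FreeGroup hiding map_mul map_inv map_one

universe u

section Setup

variable {Ω : Type u} [Group Ω] {S : Subgroup Ω} [Finite S]

/-- the permutations of the underlying set -/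
abbrev Sym (S : Subgroup Ω) : Type u := Equiv.Perm S

/-- the regular representation -/
def reg (S : Subgroup Ω) : S →* Equiv.Perm S := MulAction.toPermHom S S

theorem reg_apply (s x : S) : reg S s x = s * x := rfl

theorem reg_injective : Function.Injective (reg S) := by
  intro a b h
  have := Equiv.congr_fun h 1
  simpa [reg_apply] using this

variable (F : Cfsg.FusionSystem S)

/-- the maps of the system -/
def Mor : Type u := {x : (P : Subgroup Ω) × (P →* Ω) // x.2 ∈ F.Hom x.1}

variable {F}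

/-- the source -/
def Mor.dom (m : Mor F) : Subgroup Ω := m.1.1

theorem Mor.dom_le (m : Mor F) : m.dom ≤ S := (F.le_of_mem m.2).1

/-- the map, into `S` -/
def Mor.map (m : Mor F) : m.dom →* S := MonoidHom.codRestrict m.1.2 S (F.le_of_mem m.2).2

/-- the inclusion of the source -/
def Mor.incl (m : Mor F) : m.dom →* S := Subgroup.inclusion m.dom_le

theorem Mor.map_injective (m : Mor F) : Function.Injective m.map := fun _ _ h =>
  F.injective_of_mem m.2 (congrArg Subtype.val h)

theorem exists_perm (m : Mor F) :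
    ∃ σ : Equiv.Perm S, ∀ x : m.dom, σ * reg S (m.incl x) = reg S (m.map x) * σ := by
  obtain ⟨A, hA, -⟩ := m.incl.range.exists_isComplement_right 1
  obtain ⟨B, hB, -⟩ := m.map.range.exists_isComplement_right 1
  let e : m.incl.range ≃ m.map.range :=
    (MonoidHom.ofInjective (f := m.incl) (Subgroup.inclusion_injective m.dom_le)).symm.toEquiv.trans
      (MonoidHom.ofInjective m.map_injective).toEquiv
  have he : ∀ x : m.dom, ∀ z : m.incl.range,
      (e (⟨m.incl x, x, rfl⟩ * z) : S) = m.map x * e z := by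
    intro x z
    obtain ⟨_, y, rfl⟩ := z
    have h1 : ∀ w : m.dom, (e ⟨m.incl w, w, rfl⟩ : S) = m.map w := fun w => by
      show ((MonoidHom.ofInjective m.map_injective)
        ((MonoidHom.ofInjective (f := m.incl) (Subgroup.inclusion_injective m.dom_le)).symm _) : S) = _
      rw [show (MonoidHom.ofInjective (f := m.incl) (Subgroup.inclusion_injective m.dom_le)).symm
        ⟨m.incl w, w, rfl⟩ = w from (MulEquiv.symm_apply_eq _).2 (Subtype.ext rfl)]
      rfl
    rw [h1 y, show (⟨m.incl x, x, rfl⟩ * ⟨m.incl y, y, rfl⟩ : m.incl.range) =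
      ⟨m.incl (x * y), x * y, rfl⟩ from Subtype.ext (map_mul m.incl x y).symm, h1 (x * y), map_mul]
  have hcard : Nat.card A = Nat.card B := by
    have h1 := hA.card_mul_card
    have h2 := hB.card_mul_card
    have h3 : Nat.card m.incl.range = Nat.card m.map.range := Nat.card_congr e
    have h4 : 0 < Nat.card m.map.range := Nat.card_pos
    simp only [SetLike.coe_sort_coe] at h1 h2
    rw [h3, ← h2] at h1
    exact Nat.eq_of_mul_eq_mul_left h4 h1
  let f : A ≃ B := Classical.choice (Finite.card_eq.1 hcard)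
  let σ : Equiv.Perm S := hA.equiv.trans ((Equiv.prodCongr e f).trans hB.equiv.symm)
  refine ⟨σ, fun x => Equiv.ext fun z => ?_⟩
  show σ (m.incl x * z) = m.map x * σ z
  have h5 : hA.equiv (m.incl x * z) = (⟨m.incl x, x, rfl⟩ * (hA.equiv z).1, (hA.equiv z).2) := by
    rw [Equiv.apply_eq_iff_eq_symm_apply, Subgroup.IsComplement.equiv_symm_apply]
    show m.incl x * z = m.incl x * ((hA.equiv z).1 : S) * ((hA.equiv z).2 : S)
    rw [mul_assoc, hA.equiv_fst_mul_equiv_snd]
  show hB.equiv.symm (e (hA.equiv (m.incl x * z)).1, f (hA.equiv (m.incl x * z)).2) =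
    m.map x * hB.equiv.symm (e (hA.equiv z).1, f (hA.equiv z).2)
  rw [h5, Subgroup.IsComplement.equiv_symm_apply, Subgroup.IsComplement.equiv_symm_apply, ← mul_assoc]
  show (e (⟨m.incl x, x, rfl⟩ * (hA.equiv z).1) : S) * _ = _
  rw [he]

/-- a permutation realizing a map of the system -/
noncomputable def perm (m : Mor F) : Equiv.Perm S := (exists_perm m).choose

theorem perm_spec (m : Mor F) (x : m.dom) : perm m * reg S (m.incl x) = reg S (m.map x) * perm m :=
  (exists_perm m).choose_spec x

/-- the stabilizer of the edge of a map -/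
def Mor.grp (m : Mor F) : Subgroup (Equiv.Perm S) := ((reg S).comp m.map).range

variable (F)

/-- the vertices -/
abbrev Vert (S : Subgroup Ω) : Type u := Equiv.Perm S ⧸ (reg S).range

/-- the edges -/
abbrev Edge : Type u := (m : Mor F) × (Equiv.Perm S ⧸ m.grp)

noncomputable instance edgeAction : MulAction (Equiv.Perm S) (Edge F) where
  smul g e := ⟨e.1, g • e.2⟩
  one_smul e := Sigma.ext rfl (heq_of_eq (one_smul _ e.2))
  mul_smul g h e := Sigma.ext rfl (heq_of_eq (mul_smul g h e.2))

/-- the base vertex -/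
def base (S : Subgroup Ω) : Vert S := (QuotientGroup.mk 1)

theorem smul_base (σ : Equiv.Perm S) : σ • base S = (QuotientGroup.mk σ : Vert S) := by
  show (QuotientGroup.mk (σ * 1) : Vert S) = _
  rw [mul_one]

variable {F}

/-- the initial vertex -/
noncomputable def src (e : Edge F) : Vert S := QuotientGroup.mk e.2.out

/-- the final vertex -/
noncomputable def tgt (e : Edge F) : Vert S := QuotientGroup.mk (e.2.out * perm e.1)

theorem src_mk (m : Mor F) (τ : Equiv.Perm S) : src ⟨m, QuotientGroup.mk τ⟩ = (QuotientGroup.mk τ : Vert S) := by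
  obtain ⟨r, hr⟩ := QuotientGroup.mk_out_eq_mul m.grp τ
  show QuotientGroup.mk (QuotientGroup.mk τ : Equiv.Perm S ⧸ m.grp).out = _
  rw [hr]
  obtain ⟨x, hx⟩ := r.2
  refine (QuotientGroup.eq.2 ?_).symm
  rw [inv_mul_cancel_left, ← hx]
  exact ⟨m.map x, rfl⟩

theorem tgt_mk (m : Mor F) (τ : Equiv.Perm S) :
    tgt ⟨m, QuotientGroup.mk τ⟩ = (QuotientGroup.mk (τ * perm m) : Vert S) := by
  obtain ⟨r, hr⟩ := QuotientGroup.mk_out_eq_mul m.grp τ
  show QuotientGroup.mk ((QuotientGroup.mk τ : Equiv.Perm S ⧸ m.grp).out * perm m) = _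
  rw [hr]
  obtain ⟨x, hx⟩ := r.2
  have hx' : reg S (m.map x) = (r : Equiv.Perm S) := hx
  refine (QuotientGroup.eq.2 ?_).symm
  rw [← hx', mul_assoc τ, ← perm_spec]
  simp only [mul_inv_rev]
  rw [mul_assoc, inv_mul_cancel_left, inv_mul_cancel_left]
  exact ⟨m.incl x, rfl⟩

theorem src_smul (g : Equiv.Perm S) (e : Edge F) : src (g • e) = g • src e := by
  obtain ⟨m, q⟩ := e
  induction q using QuotientGroup.induction_on with
  | H τ =>
    show src ⟨m, QuotientGroup.mk (g * τ)⟩ = _
    rw [src_mk, src_mk]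
    rfl

theorem tgt_smul (g : Equiv.Perm S) (e : Edge F) : tgt (g • e) = g • tgt e := by
  obtain ⟨m, q⟩ := e
  induction q using QuotientGroup.induction_on with
  | H τ =>
    show tgt ⟨m, QuotientGroup.mk (g * τ)⟩ = _
    rw [tgt_mk, tgt_mk, mul_assoc]
    rfl

/-- start of a letter -/
noncomputable def lsrc : Edge F × Bool → Vert S
  | (e, true) => src e
  | (e, false) => tgt e

/-- end of a letter -/
noncomputable def ltgt : Edge F × Bool → Vert S
  | (e, true) => tgt e
  | (e, false) => src e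

theorem lsrc_linv (l : Edge F × Bool) : lsrc (linv l) = ltgt l := by
  obtain ⟨e, b⟩ := l; cases b <;> rfl

theorem ltgt_linv (l : Edge F × Bool) : ltgt (linv l) = lsrc l := by
  obtain ⟨e, b⟩ := l; cases b <;> rfl

theorem lsrc_lmap (g : Equiv.Perm S) (l : Edge F × Bool) : lsrc (lmap g l) = g • lsrc l := by
  obtain ⟨e, b⟩ := l; cases b
  · exact tgt_smul g e
  · exact src_smul g e

theorem ltgt_lmap (g : Equiv.Perm S) (l : Edge F × Bool) : ltgt (lmap g l) = g • ltgt l := by
  obtain ⟨e, b⟩ := l; cases b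
  · exact src_smul g e
  · exact tgt_smul g e

/-- walks -/
def IsWalk : Vert S → List (Edge F × Bool) → Vert S → Prop
  | a, [], b => a = b
  | a, l :: L, b => lsrc l = a ∧ IsWalk (ltgt l) L b

theorem isWalk_append : ∀ (L L' : List (Edge F × Bool)) (a c : Vert S),
    IsWalk a (L ++ L') c ↔ ∃ b, IsWalk a L b ∧ IsWalk b L' c
  | [], L', a, c => ⟨fun h => ⟨a, rfl, h⟩, fun ⟨b, h, h'⟩ => by
      have h0 : a = b := h
      rw [h0]; exact h'⟩
  | l :: L, L', a, c => by
      show lsrc l = a ∧ IsWalk (ltgt l) (L ++ L') c ↔ _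
      rw [isWalk_append L L']
      exact ⟨fun ⟨h, b, h1, h2⟩ => ⟨b, ⟨h, h1⟩, h2⟩, fun ⟨b, ⟨h, h1⟩, h2⟩ => ⟨h, b, h1, h2⟩⟩

theorem isWalk_step {a c : Vert S} {L L' : List (Edge F × Bool)} (h : Red.Step L L')
    (hw : IsWalk a L c) : IsWalk a L' c := by
  cases h with
  | @not L₁ L₂ x b =>
    rw [isWalk_append] at hw ⊢
    obtain ⟨v, h1, h2, h3, h4⟩ := hw
    refine ⟨v, h1, ?_⟩
    have h5 : ltgt (x, !b) = lsrc (x, b) := ltgt_linv (x, b)
    rw [h5, h2] at h4
    exact h4

theorem isWalk_red {a c : Vert S} {L L' : List (Edge F × Bool)} (h : Red L L')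
    (hw : IsWalk a L c) : IsWalk a L' c := by
  induction h with
  | refl => exact hw
  | tail _ hstep ih => exact isWalk_step hstep ih

theorem isWalk_map (g : Equiv.Perm S) : ∀ (L : List (Edge F × Bool)) (a c : Vert S),
    IsWalk a L c → IsWalk (g • a) (L.map (lmap g)) (g • c)
  | [], a, c, h => congrArg (g • ·) (show a = c from h)
  | l :: L, a, c, ⟨h, h'⟩ => ⟨by rw [lsrc_lmap, h], by
      rw [ltgt_lmap]
      exact isWalk_map g L _ _ h'⟩

theorem isWalk_invRev : ∀ (L : List (Edge F × Bool)) (a c : Vert S),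
    IsWalk a L c → IsWalk c (invRev L) a
  | [], a, c, h => (show a = c from h).symm
  | l :: L, a, c, ⟨h, h'⟩ => by
      rw [invRev_cons, isWalk_append]
      exact ⟨ltgt l, isWalk_invRev L _ _ h', lsrc_linv l, (ltgt_linv l).trans h⟩

variable [DecidableEq (Edge F)]

/-- a word of the free group that is a walk -/
def WalkW (a : Vert S) (w : FreeGroup (Edge F)) (c : Vert S) : Prop := IsWalk a w.toWord c

theorem walkW_mul {a b c : Vert S} {v w : FreeGroup (Edge F)} (hv : WalkW a v b) (hw : WalkW b w c) :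
    WalkW a (v * w) c := by
  show IsWalk a (v * w).toWord c
  rw [toWord_mul]
  exact isWalk_red reduce.red ((isWalk_append _ _ _ _).2 ⟨b, hv, hw⟩)

theorem walkW_inv {a c : Vert S} {v : FreeGroup (Edge F)} (hv : WalkW a v c) : WalkW c v⁻¹ a := by
  show IsWalk c v⁻¹.toWord a
  rw [toWord_inv]
  exact isWalk_invRev _ _ _ hv

theorem walkW_act (g : Equiv.Perm S) {a c : Vert S} {v : FreeGroup (Edge F)} (hv : WalkW a v c) :
    WalkW (g • a) (act g v) (g • c) := by
  show IsWalk _ (act g v).toWord _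
  rw [toWord_act]
  exact isWalk_map g _ _ _ hv

theorem walkW_letter (l : Edge F × Bool) : WalkW (lsrc l) (FreeGroup.mk [l]) (ltgt l) := by
  show IsWalk _ (FreeGroup.mk [l]).toWord _
  rw [toWord_mk, IsReduced.reduce_eq IsReduced.singleton]
  exact ⟨rfl, rfl⟩

variable (F)

/-- the group: walks from the base vertex to its image -/
def grp : Subgroup (SemidirectProduct (FreeGroup (Edge F)) (Equiv.Perm S) act) where
  carrier := {x | WalkW (base S) x.left (x.right • base S)}
  one_mem' := by
    show IsWalk (base S) (1 : FreeGroup (Edge F)).toWord ((1 : Equiv.Perm S) • base S)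
    rw [toWord_one, one_smul]
    rfl
  mul_mem' := fun {x y} hx hy => by
    show WalkW (base S) (x.left * act x.right y.left) ((x.right * y.right) • base S)
    rw [mul_smul]
    exact walkW_mul hx (walkW_act _ hy)
  inv_mem' := fun {x} hx => by
    show WalkW (base S) (act x.right⁻¹ x.left⁻¹) (x.right⁻¹ • base S)
    have h := walkW_act x.right⁻¹ (walkW_inv hx)
    rwa [inv_smul_smul] at h

theorem mem_grp {x : SemidirectProduct (FreeGroup (Edge F)) (Equiv.Perm S) act} :
    x ∈ grp F ↔ WalkW (base S) x.left (x.right • base S) := Iff.rfl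

theorem reg_fix (s : S) : reg S s • base S = base S := by
  rw [smul_base]
  refine QuotientGroup.eq.2 ?_
  rw [mul_one]
  exact ⟨s⁻¹, map_inv _ _⟩

/-- the embedding -/
noncomputable def emb : S →* grp F :=
  MonoidHom.codRestrict ((SemidirectProduct.inr : Equiv.Perm S →* _).comp (reg S)) (grp F) fun s => by
    show IsWalk (base S) (1 : FreeGroup (Edge F)).toWord (reg S s • base S)
    rw [toWord_one, reg_fix]
    rfl

theorem emb_val (s : S) : ((emb F s : grp F) :
    SemidirectProduct (FreeGroup (Edge F)) (Equiv.Perm S) act) = SemidirectProduct.inr (reg S s) := rfl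

theorem emb_injective : Function.Injective (emb F) := fun _ _ h =>
  reg_injective (SemidirectProduct.inr_injective (congrArg Subtype.val h))

theorem realized : F.IsRealizedBy (emb F) := by
  refine ⟨emb_injective F, fun P hP φ hφ => ⟨fun hmem => ?_, fun ⟨g, hg⟩ => ?_⟩⟩
  · let m : Mor F := ⟨⟨P, φ⟩, hmem⟩
    let e : Edge F := ⟨m, QuotientGroup.mk 1⟩
    have hge : (⟨FreeGroup.of e, perm m⟩ : SemidirectProduct (FreeGroup (Edge F)) (Equiv.Perm S) act)
        ∈ grp F := by
      have h := walkW_letter (F := F) (e, true)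
      have h1 : lsrc (e, true) = base S := src_mk m 1
      have h2 : ltgt (e, true) = perm m • base S := by
        rw [smul_base]
        exact (tgt_mk m 1).trans (by rw [one_mul])
      rw [h1, h2] at h
      exact h
    refine ⟨⟨_, hge⟩, fun x => eq_mul_inv_iff_mul_eq.2 (Subtype.ext ?_)⟩
    rw [Subgroup.coe_mul, Subgroup.coe_mul, emb_val, emb_val]
    refine SemidirectProduct.ext ?_ ?_
    · show 1 * act (reg S ⟨φ x, hφ x⟩) (FreeGroup.of e) = FreeGroup.of e * act (perm m) 1
      rw [map_one, one_mul, mul_one, act_of]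
      congr 1
      show (⟨m, QuotientGroup.mk (reg S ⟨φ x, hφ x⟩ * 1)⟩ : Edge F) = ⟨m, QuotientGroup.mk 1⟩
      refine Sigma.ext rfl (heq_of_eq (QuotientGroup.eq.2 ?_))
      rw [mul_one, mul_one]
      exact inv_mem ⟨x, rfl⟩
    · show reg S ⟨φ x, hφ x⟩ * perm m = perm m * reg S ⟨x, hP x.2⟩
      exact (perm_spec m x).symm
  · obtain ⟨⟨w, σ⟩, hgw⟩ := g
    have hwalk : IsWalk (base S) w.toWord (σ • base S) := hgw
    have hrel : ∀ x : P, act (reg S ⟨φ x, hφ x⟩) w = w ∧
        reg S ⟨φ x, hφ x⟩ * σ = σ * reg S ⟨x, hP x.2⟩ := by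
      intro x
      have h := congrArg Subtype.val (eq_mul_inv_iff_mul_eq.1 (hg x))
      rw [Subgroup.coe_mul, Subgroup.coe_mul, emb_val, emb_val] at h
      have h1 := congrArg SemidirectProduct.left h
      have h2 := congrArg SemidirectProduct.right h
      simp only [SemidirectProduct.mul_left, SemidirectProduct.mul_right, SemidirectProduct.left_inr,
        SemidirectProduct.right_inr, map_one, one_mul, mul_one] at h1 h2
      exact ⟨h1, h2⟩
    have hfixl : ∀ x : P, ∀ l ∈ w.toWord, lmap (reg S ⟨φ x, hφ x⟩) l = l := by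
      intro x
      have h := toWord_act (reg S ⟨φ x, hφ x⟩) w
      rw [(hrel x).1] at h
      intro l hl
      exact List.map_inj_left.1 (h.symm.trans (List.map_id _).symm) l hl
    -- maps of the system along the walk, backwards
    have key : ∀ (L : List (Edge F × Bool)) (a : Vert S), (∀ l ∈ L, l ∈ w.toWord) →
        IsWalk a L (σ • base S) → ∀ ρ : Equiv.Perm S, (QuotientGroup.mk ρ : Vert S) = a →
        ∃ ψ ∈ F.Hom P, ∀ (x : P) (hx : ψ x ∈ S),
          reg S ⟨φ x, hφ x⟩ * ρ = ρ * reg S ⟨ψ x, hx⟩ := by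
      intro L
      induction L with
      | nil =>
        intro a _ hw ρ hρ
        have h0 : (QuotientGroup.mk ρ : Vert S) = QuotientGroup.mk σ := by
          rw [hρ, ← smul_base]; exact hw
        obtain ⟨s, hs⟩ := QuotientGroup.eq.1 h0
        refine ⟨Cfsg.conjHom P s, F.conj_mem hP s.2, fun x hx => ?_⟩
        have hρσ : ρ = σ * (reg S s)⁻¹ := by
          rw [hs, mul_inv_rev, inv_inv, mul_inv_cancel_left]
        have hval : (⟨Cfsg.conjHom P (s : Ω) x, hx⟩ : S) = s * ⟨x, hP x.2⟩ * s⁻¹ := Subtype.ext rfl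
        rw [hρσ, hval, map_mul, map_mul, map_inv, ← mul_assoc, (hrel x).2]
        simp only [mul_assoc, inv_mul_cancel_left]
      | cons l L ih =>
        intro a hmem hw ρ hρ
        obtain ⟨hl1, hl2⟩ := hw
        have hlw := hmem l List.mem_cons_self
        obtain ⟨⟨m, q⟩, b⟩ := l
        induction q using QuotientGroup.induction_on with
        | H τ =>
        have hfix : ∀ x : P, τ⁻¹ * reg S ⟨φ x, hφ x⟩ * τ ∈ m.grp := fun x => by
          have h := congrArg Prod.fst (hfixl x _ hlw)
          have h' : (QuotientGroup.mk (reg S ⟨φ x, hφ x⟩ * τ) : Equiv.Perm S ⧸ m.grp) =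
              QuotientGroup.mk τ := eq_of_heq (Sigma.ext_iff.1 h).2
          rw [mul_assoc]
          exact QuotientGroup.eq.1 h'.symm
        cases b
        · -- backwards along the edge
          have hn : (QuotientGroup.mk τ : Vert S) = ltgt ((⟨m, QuotientGroup.mk τ⟩ : Edge F), false) :=
            (src_mk m τ).symm
          obtain ⟨ψ', hψ', hψ'rel⟩ := ih _ (fun l h => hmem l (List.mem_cons_of_mem _ h)) hl2 τ hn
          have hS' := (F.le_of_mem hψ').2
          obtain ⟨χ, hχ, hχinv⟩ := F.inv_mem m.2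
          have hrange : ∀ x : P, ψ' x ∈ m.1.2.range := fun x => by
            obtain ⟨y, hy⟩ := hfix x
            have hy' : reg S (m.map y) = reg S ⟨ψ' x, hS' x⟩ := by
              rw [← mul_right_inj τ, ← hψ'rel x (hS' x)]
              show τ * ((reg S).comp m.map y) = _
              rw [hy, ← mul_assoc, mul_inv_cancel_left]
            exact ⟨y, congrArg Subtype.val (reg_injective hy')⟩
          let ψ₁ := χ.comp (ψ'.codRestrict _ hrange)
          have hψ₁ : ψ₁ ∈ F.Hom P := F.comp_mem hψ' hχ hrange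
          have hrel₁ : ∀ (x : P) (hx : ψ₁ x ∈ S),
              reg S ⟨φ x, hφ x⟩ * (τ * perm m) = τ * perm m * reg S ⟨ψ₁ x, hx⟩ := by
            intro x hx
            obtain ⟨y, hy⟩ := hrange x
            have e1 : (⟨ψ₁ x, hx⟩ : S) = m.incl y := Subtype.ext (by
              show χ ⟨ψ' x, hrange x⟩ = (y : Ω)
              rw [← hχinv y]
              congr 1
              exact Subtype.ext hy.symm)
            have e2 : (⟨ψ' x, hS' x⟩ : S) = m.map y := Subtype.ext hy.symm
            rw [← mul_assoc, hψ'rel x (hS' x), e2, e1, mul_assoc τ, mul_assoc τ]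
            exact congrArg (τ * ·) (perm_spec m y).symm
          have hρ' : (QuotientGroup.mk (τ * perm m) : Vert S) = QuotientGroup.mk ρ := by
            rw [hρ, ← hl1]; exact (tgt_mk m τ).symm
          obtain ⟨s, hs⟩ := QuotientGroup.eq.1 hρ'
          have hS₁ := (F.le_of_mem hψ₁).2
          refine ⟨(Cfsg.conjHom S (s⁻¹ : S)).comp (ψ₁.codRestrict S hS₁),
            F.comp_mem hψ₁ (F.conj_mem le_rfl (s⁻¹ : S).2) hS₁, fun x hx => ?_⟩
          have hρeq : ρ = τ * perm m * reg S s := by rw [hs, mul_inv_cancel_left]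
          have hval : (⟨_, hx⟩ : S) = s⁻¹ * ⟨ψ₁ x, hS₁ x⟩ * s := Subtype.ext (by
            show (s : Ω)⁻¹ * ψ₁ x * (s : Ω)⁻¹⁻¹ = _
            rw [inv_inv]; rfl)
          rw [hρeq, hval, map_mul, map_mul, map_inv, ← mul_assoc (reg S ⟨φ x, hφ x⟩),
            hrel₁ x (hS₁ x)]
          simp only [mul_assoc, mul_inv_cancel_left]
        · -- forwards along the edge
          have hn : (QuotientGroup.mk (τ * perm m) : Vert S) =
              ltgt ((⟨m, QuotientGroup.mk τ⟩ : Edge F), true) := (tgt_mk m τ).symm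
          obtain ⟨ψ', hψ', hψ'rel⟩ :=
            ih _ (fun l h => hmem l (List.mem_cons_of_mem _ h)) hl2 (τ * perm m) hn
          have hS' := (F.le_of_mem hψ').2
          have hdom : ∀ x : P, ∃ y : m.dom, (y : Ω) = ψ' x ∧
              τ⁻¹ * reg S ⟨φ x, hφ x⟩ * τ = reg S (m.map y) := fun x => by
            obtain ⟨y, hy⟩ := hfix x
            have hy' : reg S (m.map y) = τ⁻¹ * reg S ⟨φ x, hφ x⟩ * τ := hy
            have h2 : reg S (m.incl y) = reg S ⟨ψ' x, hS' x⟩ := by
              have h3 := hψ'rel x (hS' x)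
              rw [← mul_assoc, mul_assoc τ, ← inv_mul_eq_iff_eq_mul, ← mul_assoc, ← mul_assoc, ← hy',
                ← perm_spec] at h3
              exact mul_left_cancel h3
            exact ⟨y, congrArg Subtype.val (reg_injective h2), hy'.symm⟩
          have hrange : ∀ x : P, ψ' x ∈ m.dom := fun x => by
            obtain ⟨y, hy, -⟩ := hdom x
            rw [← hy]; exact y.2
          let ψ₁ := m.1.2.comp (ψ'.codRestrict m.dom hrange)
          have hψ₁ : ψ₁ ∈ F.Hom P := F.comp_mem hψ' m.2 hrange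
          have hrel₁ : ∀ (x : P) (hx : ψ₁ x ∈ S),
              reg S ⟨φ x, hφ x⟩ * τ = τ * reg S ⟨ψ₁ x, hx⟩ := by
            intro x hx
            obtain ⟨y, hy, hy'⟩ := hdom x
            have e1 : (⟨ψ₁ x, hx⟩ : S) = m.map y := Subtype.ext (by
              show m.1.2 ⟨ψ' x, hrange x⟩ = m.1.2 y
              congr 1
              exact Subtype.ext hy.symm)
            rw [e1, ← hy', ← mul_assoc, mul_inv_cancel_left]
          have hρ' : (QuotientGroup.mk τ : Vert S) = QuotientGroup.mk ρ := by
            rw [hρ, ← hl1]; exact (src_mk m τ).symm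
          obtain ⟨s, hs⟩ := QuotientGroup.eq.1 hρ'
          have hS₁ := (F.le_of_mem hψ₁).2
          refine ⟨(Cfsg.conjHom S (s⁻¹ : S)).comp (ψ₁.codRestrict S hS₁),
            F.comp_mem hψ₁ (F.conj_mem le_rfl (s⁻¹ : S).2) hS₁, fun x hx => ?_⟩
          have hρeq : ρ = τ * reg S s := by rw [hs, mul_inv_cancel_left]
          have hval : (⟨_, hx⟩ : S) = s⁻¹ * ⟨ψ₁ x, hS₁ x⟩ * s := Subtype.ext (by
            show (s : Ω)⁻¹ * ψ₁ x * (s : Ω)⁻¹⁻¹ = _
            rw [inv_inv]; rfl)
          rw [hρeq, hval, map_mul, map_mul, map_inv, ← mul_assoc (reg S ⟨φ x, hφ x⟩),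
            hrel₁ x (hS₁ x)]
          simp only [mul_assoc, mul_inv_cancel_left]
    obtain ⟨ψ, hψ, hrelψ⟩ := key _ (base S) (fun _ h => h) hwalk 1 rfl
    have : φ = ψ := MonoidHom.ext fun x => by
      have h := hrelψ x ((F.le_of_mem hψ).2 x)
      rw [mul_one, one_mul] at h
      exact congrArg Subtype.val (reg_injective h)
    exact this ▸ hψ

theorem finite_conj : ∀ (n : ℕ) (H : Subgroup (grp F)), Finite H →
    (∀ h ∈ H, (h.1).left.norm ≤ n) → ∃ g : grp F, ∀ h ∈ H, g * h * g⁻¹ ∈ (emb F).range := by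
  intro n
  induction n using Nat.strong_induction_on with
  | _ n ih =>
    intro H hfin hn
    by_cases htriv : ∀ h ∈ H, (h.1).left = 1
    · refine ⟨1, fun h hh => ?_⟩
      rw [one_mul, inv_one, mul_one]
      have hw : IsWalk (base S) (h.1).left.toWord ((h.1).right • base S) := h.2
      rw [htriv h hh, toWord_one] at hw
      have h0 : (QuotientGroup.mk 1 : Vert S) = QuotientGroup.mk (h.1).right := by
        rw [← smul_base]; exact hw
      obtain ⟨s, hs⟩ := QuotientGroup.eq.1 h0
      refine ⟨s, Subtype.ext (SemidirectProduct.ext ?_ ?_)⟩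
      · exact (htriv h hh).symm
      · show reg S s = _
        rw [hs, inv_one, one_mul]
    · push Not at htriv
      obtain ⟨h₀, hh₀, hne₀⟩ := htriv
      haveI := hfin
      haveI : Nonempty H := ⟨⟨1, H.one_mem⟩⟩
      obtain ⟨⟨k, hk⟩, hmax⟩ := Finite.exists_max (fun h : H => ((h : grp F).1).left.norm)
      let H' := H.map (grp F).subtype
      haveI : Finite H' := Finite.of_equiv H (H.equivMapOfInjective _ (grp F).subtype_injective).toEquiv
      have hkpos : 0 < (k.1).left.norm :=
        lt_of_lt_of_le (Nat.pos_of_ne_zero fun h => hne₀ (FreeGroup.norm_eq_zero.1 h)) (hmax ⟨h₀, hh₀⟩)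
      obtain ⟨x, L, hxL⟩ : ∃ x L, (k.1).left.toWord = x :: L := by
        cases hcase : (k.1).left.toWord with
        | nil =>
          have h0 : (k.1).left.toWord.length = 0 := by rw [hcase]; rfl
          exact absurd h0 (Nat.pos_iff_ne_zero.1 hkpos)
        | cons x L => exact ⟨x, L, rfl⟩
      have hxsrc : lsrc x = base S := by
        have hw : IsWalk (base S) (k.1).left.toWord ((k.1).right • base S) := k.2
        rw [hxL] at hw
        exact hw.1
      obtain ⟨ρ, hρ⟩ := QuotientGroup.mk_surjective (ltgt x)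
      have hg₀ : (⟨FreeGroup.mk [x], ρ⟩ : SemidirectProduct (FreeGroup (Edge F)) (Equiv.Perm S) act)
          ∈ grp F := by
        have h := walkW_letter (F := F) x
        rw [hxsrc, ← hρ, ← smul_base] at h
        exact h
      let g₀ : grp F := ⟨_, hg₀⟩
      let K : Subgroup (grp F) := H.map (MulAut.conj g₀⁻¹).toMonoidHom
      have hKfin : Finite K :=
        Finite.of_equiv H (H.equivMapOfInjective _ (MulAut.conj g₀⁻¹).injective).toEquiv
      have hnorm : ∀ h ∈ H, ((g₀⁻¹ * h * g₀⁻¹⁻¹ : grp F).1).left.norm ≤ (k.1).left.norm - 1 := by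
        intro h hh
        have hlt := shorten H' k.1 ⟨k, hk, rfl⟩ (by
            rintro _ ⟨y, hy, rfl⟩
            exact hmax ⟨y, hy⟩) x (by rw [hxL]; rfl) h.1 ⟨h, hh, rfl⟩
        have hl : ((g₀⁻¹ * h * g₀⁻¹⁻¹ : grp F).1).left =
            act ρ⁻¹ ((FreeGroup.mk [x])⁻¹ * (h.1).left * act (h.1).right (FreeGroup.mk [x])) := by
          rw [inv_inv]
          show act ρ⁻¹ (FreeGroup.mk [x])⁻¹ * act ρ⁻¹ (h.1).left *
            act (ρ⁻¹ * (h.1).right) (FreeGroup.mk [x]) = _
          rw [map_mul, map_mul, map_mul]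
          rfl
        rw [hl, norm_act]
        omega
      obtain ⟨g, hg⟩ := ih ((k.1).left.norm - 1) (by have := hn k hk; omega) K hKfin
        (by rintro _ ⟨h, hh, rfl⟩; exact hnorm h hh)
      refine ⟨g * g₀⁻¹, fun h hh => ?_⟩
      have h1 := hg _ ⟨h, hh, rfl⟩
      have h2 : g * g₀⁻¹ * h * (g * g₀⁻¹)⁻¹ = g * (g₀⁻¹ * h * g₀⁻¹⁻¹) * g⁻¹ := by group
      rw [h2]
      exact h1

theorem finite_subgroup_conj (H : Subgroup (grp F)) (hfin : Finite H) :
    ∃ g : grp F, ∀ h ∈ H, g * h * g⁻¹ ∈ (emb F).range := by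
  haveI := hfin
  haveI : Nonempty H := ⟨⟨1, H.one_mem⟩⟩
  obtain ⟨k, hmax⟩ := Finite.exists_max (fun h : H => ((h : grp F).1).left.norm)
  exact finite_conj F _ H hfin fun h hh => hmax ⟨h, hh⟩

theorem virtually_free : ∃ N : Subgroup (grp F), N.Normal ∧ IsFreeGroup N ∧
    N.index ∣ (Nat.card S).factorial := by
  let π : grp F →* Equiv.Perm S := SemidirectProduct.rightHom.comp (grp F).subtype
  refine ⟨π.ker, inferInstance, ?_, ?_⟩
  · have hright : ∀ x : π.ker, ((x : grp F).1).right = 1 := fun x => x.2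
    let f : π.ker →* FreeGroup (Edge F) :=
      { toFun := fun x => ((x : grp F).1).left
        map_one' := rfl
        map_mul' := fun x y => by
          show ((x : grp F).1).left * act ((x : grp F).1).right ((y : grp F).1).left = _
          rw [hright x, map_one]
          rfl }
    have hinj : Function.Injective f := fun x y h =>
      Subtype.ext (Subtype.ext (SemidirectProduct.ext h ((hright x).trans (hright y).symm)))
    exact IsFreeGroup.ofMulEquiv (MonoidHom.ofInjective hinj).symm
  · rw [Subgroup.index_ker, ← Nat.card_perm]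
    exact Subgroup.card_subgroup_dvd_card _

end Setup

theorem main {Ω : Type u} [Group Ω] {S : Subgroup Ω} [Finite S] (F : Cfsg.FusionSystem S) :
    ∃ (G : Type u) (_ : Group G) (ι : ↥S →* G), F.IsRealizedBy ι ∧
      (∀ H : Subgroup G, Finite ↥H → ∃ g : G, ∀ h ∈ H, g * h * g⁻¹ ∈ ι.range) ∧
      ∃ N : Subgroup G, N.Normal ∧ IsFreeGroup ↥N ∧ N.index ∣ (Nat.card ↥S).factorial := by
  classical
  exact ⟨grp F, inferInstance, emb F, realized F, finite_subgroup_conj F, virtually_free F⟩

end Cfsg.Agent.Transfer.FusionFree
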