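import Mathlib.GroupTheory.FreeGroup.Reduce
import Mathlib.GroupTheory.SemidirectProduct
import Mathlib.Algebra.Group.Action.Basic
import Mathlib.Data.List.Chain
import Mathlib.GroupTheory.OrderOfElement
import Mathlib.Tactic.Group

/-! Walks in a graph as reduced words in the free group on its edges, twisted by a group of graph
automorphisms, and finite subgroups of the resulting semidirect product. -/

set_option autoImplicit false

namespace Cfsg.Agent.Transfer.FusionFree

open FreeGroup hiding map_mul map_inv map_one

universe u v

variable {Γ : Type v} [Group Γ] {E : Type u} [MulAction Γ E]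

/-- the action on the free group induced by an action on the letters -/
def act : Γ →* MulAut (FreeGroup E) where
  toFun g := freeGroupCongr (MulAction.toPerm g)
  map_one' := by
    ext x
    induction x using FreeGroup.induction_on with
    | C1 => simp
    | of a => simp [freeGroupCongr]
    | inv_of a ih => rw [map_inv, map_inv, ih]
    | mul a b ha hb => rw [map_mul, map_mul, ha, hb]
  map_mul' g h := by
    ext x
    induction x using FreeGroup.induction_on with
    | C1 => simp
    | of a => simp [freeGroupCongr, mul_smul]
    | inv_of a ih => rw [map_inv, map_inv, ih]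
    | mul a b ha hb => rw [map_mul, map_mul, ha, hb]

theorem act_of (g : Γ) (e : E) : act g (of e) = of (g • e) := by
  simp [act, freeGroupCongr]

/-- the action on letters -/
def lmap (g : Γ) (l : E × Bool) : E × Bool := (g • l.1, l.2)

/-- inversion of a letter -/
def linv (l : E × Bool) : E × Bool := (l.1, !l.2)

theorem lmap_mul (g h : Γ) (l : E × Bool) : lmap (g * h) l = lmap g (lmap h l) := by
  simp [lmap, mul_smul]

theorem lmap_one (l : E × Bool) : lmap (1 : Γ) l = l := by simp [lmap]

theorem lmap_linv (g : Γ) (l : E × Bool) : lmap g (linv l) = linv (lmap g l) := rfl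

theorem linv_linv (l : E × Bool) : linv (linv l) = l := by simp [linv]

theorem linv_ne (l : E × Bool) : linv l ≠ l := by
  obtain ⟨e, b⟩ := l
  cases b <;> simp [linv]

theorem junction (a b : E × Bool) (h : b ≠ linv a) : a.1 = b.1 → a.2 = b.2 := by
  intro h1
  by_contra h2
  refine h (Prod.ext h1.symm ?_)
  obtain ⟨e, s⟩ := a
  obtain ⟨f, t⟩ := b
  cases s <;> cases t <;> simp_all [linv]

variable [DecidableEq E]

theorem toWord_act (g : Γ) (w : FreeGroup E) : (act g w).toWord = w.toWord.map (lmap g) := by
  conv_lhs => rw [← mk_toWord (x := w)]
  have : act g (mk w.toWord) = mk (w.toWord.map (lmap g)) := map.mk (f := MulAction.toPerm g)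
  rw [this, toWord_mk]
  refine IsReduced.reduce_eq ?_
  refine (List.isChain_map _).2 ?_
  refine List.IsChain.imp ?_ (isReduced_toWord (x := w))
  intro a b hab h
  exact hab (MulAction.injective g h)

theorem norm_act (g : Γ) (w : FreeGroup E) : (act g w).norm = w.norm := by
  simp [FreeGroup.norm, toWord_act]

/-- a reduced concatenation -/
theorem toWord_mul_eq (x y : FreeGroup E)
    (h : ∀ a ∈ x.toWord.getLast?, ∀ b ∈ y.toWord.head?, b ≠ linv a) :
    (x * y).toWord = x.toWord ++ y.toWord := by
  rw [toWord_mul]
  refine IsReduced.reduce_eq ?_
  exact List.IsChain.append isReduced_toWord isReduced_toWord fun a ha b hb => junction a b (h a ha b hb)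

theorem invRev_eq (L : List (E × Bool)) : invRev L = (L.map linv).reverse := rfl

/-! ### finite subgroups -/

variable (H : Subgroup (SemidirectProduct (FreeGroup E) Γ act)) [Finite H]

theorem elliptic (h : SemidirectProduct (FreeGroup E) Γ act) (hh : h ∈ H) (a : E × Bool)
    (ha : a ∈ h.left.toWord.head?) : linv (lmap h.right a) ∈ h.left.toWord.getLast? := by
  by_contra hne
  have key : ∀ j : ℕ, (h ^ (j + 1)).left.toWord.head? = some a ∧
      (h ^ (j + 1)).left.toWord.length = (j + 1) * h.left.toWord.length := by
    intro j
    induction j with
    | zero =>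
      simp only [zero_add, pow_one, one_mul, and_true]
      exact ha
    | succ j ih =>
      have hmul : (h ^ (j + 1 + 1)).left = h.left * act h.right (h ^ (j + 1)).left := by
        rw [pow_succ' h (j + 1)]
        rfl
      have hcat : (h ^ (j + 1 + 1)).left.toWord =
          h.left.toWord ++ (h ^ (j + 1)).left.toWord.map (lmap h.right) := by
        rw [hmul, toWord_mul_eq, toWord_act]
        intro c hc b hb
        rw [toWord_act, List.head?_map, ih.1] at hb
        simp only [Option.map_some, Option.mem_def, Option.some.injEq] at hb
        subst hb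
        intro he
        apply hne
        rw [he, linv_linv]
        exact hc
      refine ⟨?_, ?_⟩
      · rw [hcat, List.head?_append, Option.mem_def.1 ha]
        rfl
      · rw [hcat, List.length_append, List.length_map, ih.2, Nat.add_one_mul (j + 1)]
        omega
  obtain ⟨j, hj⟩ : ∃ j : ℕ, h ^ (j + 1) = 1 := by
    have hfin : IsOfFinOrder (⟨h, hh⟩ : H) := isOfFinOrder_of_finite _
    obtain ⟨n, hn, hn1⟩ := isOfFinOrder_iff_pow_eq_one.1 hfin
    refine ⟨n - 1, ?_⟩
    rw [Nat.sub_add_cancel hn]
    exact congrArg Subtype.val hn1
  have := (key j).1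
  rw [hj] at this
  simp at this

theorem quotient_norm (h k : SemidirectProduct (FreeGroup E) Γ act) (a b : E × Bool)
    (ha : a ∈ h.left.toWord.head?) (hb : b ∈ k.left.toWord.head?) (hab : a ≠ b) :
    (h⁻¹ * k).left.norm = h.left.norm + k.left.norm := by
  have hl : (h⁻¹ * k).left = act h.right⁻¹ (h.left⁻¹ * k.left) := by
    rw [map_mul]
    rfl
  rw [hl, norm_act]
  show (h.left⁻¹ * k.left).toWord.length = h.left.toWord.length + k.left.toWord.length
  rw [toWord_mul_eq, List.length_append, toWord_inv, invRev_length]
  intro c hc d hd
  rw [toWord_inv, invRev_eq, List.getLast?_reverse, List.head?_map, Option.mem_def.1 ha] at hc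
  simp only [Option.map_some, Option.mem_def, Option.some.injEq] at hc
  subst hc
  rw [linv_linv]
  have : b = d := Option.mem_unique hb hd
  exact this ▸ Ne.symm hab

/-- all elements of a finite subgroup of maximal displacement `n > 0` start with the same letter, and
conjugating by it shortens them all -/
theorem shorten (k : SemidirectProduct (FreeGroup E) Γ act) (hk : k ∈ H)
    (hmax : ∀ h ∈ H, h.left.norm ≤ k.left.norm) (x : E × Bool) (hx : x ∈ k.left.toWord.head?)
    (h : SemidirectProduct (FreeGroup E) Γ act) (hh : h ∈ H) :
    ((mk [x])⁻¹ * h.left * act h.right (mk [x])).norm < k.left.norm := by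
  have hkpos : 0 < k.left.norm := by
    show 0 < k.left.toWord.length
    cases hw : k.left.toWord with
    | nil => rw [hw] at hx; simp at hx
    | cons a L => simp
  by_cases hw : h.left = 1
  · have hfix : lmap h.right x = x := by
      by_contra hne
      have hl : (h * k).left = act h.right k.left := by
        show h.left * act h.right k.left = _
        rw [hw, one_mul]
      have h1 : lmap h.right x ∈ (h * k).left.toWord.head? := by
        rw [hl, toWord_act, List.head?_map, Option.mem_def.1 hx]
        rfl
      have h2 := quotient_norm (h * k) k _ x h1 hx hne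
      have h3 := hmax ((h * k)⁻¹ * k) (H.mul_mem (H.inv_mem (H.mul_mem hh hk)) hk)
      have h4 : (h * k).left.norm = k.left.norm := by rw [hl, norm_act]
      omega
    have h5 : act h.right (mk [x]) = mk [x] := by
      apply toWord_injective
      rw [toWord_act, toWord_mk, IsReduced.reduce_eq IsReduced.singleton]
      simp [hfix]
    rw [hw, h5, mul_one, inv_mul_cancel]
    simpa using hkpos
  · obtain ⟨a, L, haL⟩ : ∃ a L, h.left.toWord = a :: L := by
      cases hcase : h.left.toWord with
      | nil => exact absurd (toWord_eq_nil_iff.1 hcase) hw
      | cons a L => exact ⟨a, L, rfl⟩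
    have hhead : a ∈ h.left.toWord.head? := by rw [haL]; rfl
    have hax : a = x := by
      by_contra hne
      have h2 := quotient_norm k h x a hx hhead (Ne.symm hne)
      have h3 := hmax (k⁻¹ * h) (H.mul_mem (H.inv_mem hk) hh)
      have h4 : 0 < h.left.norm := by show 0 < h.left.toWord.length; rw [haL]; simp
      omega
    subst hax
    have hlast := elliptic H h hh a hhead
    have hLne : L ≠ [] := by
      rintro rfl
      rw [haL] at hlast
      simp only [List.getLast?_singleton, Option.mem_def, Option.some.injEq] at hlast
      have h6 : a.2 = !a.2 := congrArg Prod.snd hlast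
      simp at h6
    obtain ⟨M, z, rfl⟩ : ∃ M z, L = M ++ [z] := by
      rcases List.eq_nil_or_concat L with h | ⟨M, z, h⟩
      · exact absurd h hLne
      · exact ⟨M, z, by rw [h, List.concat_eq_append]⟩
    have hz : z = linv (lmap h.right a) := by
      rw [haL, ← List.cons_append, List.getLast?_concat] at hlast
      exact (Option.some.injEq _ _).mp hlast
    have hMred : IsReduced M := (isReduced_toWord (x := h.left)).infix ⟨[a], [z], by rw [haL]; rfl⟩
    have e1 : mk ([a] : List (E × Bool)) = mk [a] := rfl
    have hdecomp : h.left = mk [a] * mk M * mk [z] := by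
      rw [mul_mk, mul_mk, ← mk_toWord (x := h.left), haL]
      rfl
    have hzi : mk [z] = (act h.right (mk [a]))⁻¹ := by
      have : act h.right (mk [a]) = mk [lmap h.right a] := map.mk (f := MulAction.toPerm h.right)
      rw [this, inv_mk, hz]
      rfl
    have hcancel : (mk [a])⁻¹ * (mk [a] * mk M * (act h.right (mk [a]))⁻¹) * act h.right (mk [a]) = mk M := by
      generalize (mk [a] : FreeGroup E) = u
      generalize (mk M : FreeGroup E) = v
      group
    rw [hdecomp, hzi, hcancel]
    show (mk M).toWord.length < k.left.norm
    rw [toWord_mk, hMred.reduce_eq]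
    have := hmax h hh
    have h4 : h.left.norm = M.length + 2 := by
      show h.left.toWord.length = _
      rw [haL]
      simp
    omega

end Cfsg.Agent.Transfer.FusionFree
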